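import Cfsg.Agent.H141.Rg.Defs
import Cfsg.Agent.H141.Rg.Lin
import Cfsg.Agent.S0145

/-!
# S5714, C10: centralisers of the powers of a random element (helper342)

* `card_cent_le` : `|C(x^m)| ≤ |K| ^ (dim A)^2 |C(x)|` in the situation `GoodPow`;
* `badN_le` : few elements have a power at which some character ratio is large.
-/

set_option autoImplicit false

namespace Cfsg.Agent.H342.Rg

open Cfsg Cfsg.Agent.H141.Rg Polynomial Module

section lin

variable {K V : Type} [Field K] [AddCommGroup V] [Module K V] {X : Type} [Group X]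

/-- elements of the centraliser of `x ^ m` with the same restriction to `A` differ by an element of the centraliser
of `x` -/
theorem cent_aux {τ : X →* (V →ₗ[K] V)} (hτ : Function.Injective τ) {x : X} {A : Submodule K V} {k : ℕ}
    (h : GoodPow (τ x) A k) {m : ℕ} (h1 : 1 ≤ m) (h2 : m < k) {g g' : X} (hg : Commute g (x ^ m))
    (hg' : Commute g' (x ^ m)) (he : ∀ a ∈ A, τ g a = τ g' a) : g⁻¹ * g' ∈ Subgroup.centralizer ({x} : Set X) := by
  obtain ⟨B, hAB, hA, hB, hm⟩ := h
  have hc : Commute (g⁻¹ * g') (x ^ m) := (hg.inv_left).mul_left hg'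
  have hc' : Commute (τ (g⁻¹ * g')) (τ x ^ m) := by
    rw [← map_pow]
    exact hc.map τ
  obtain ⟨-, -, h3⟩ := hm m h1 h2 _ hc'
  have h4 : ∀ a ∈ A, τ (g⁻¹ * g') a = a := by
    intro a ha
    rw [map_mul, Module.End.mul_apply, ← he a ha, ← Module.End.mul_apply, ← map_mul, inv_mul_cancel, map_one]
    rfl
  rw [Subgroup.mem_centralizer_singleton_iff]
  generalize g⁻¹ * g' = u at h3 h4
  apply hτ
  rw [map_mul, map_mul]
  apply LinearMap.ext
  intro v
  have hv : v ∈ A ⊔ B := by rw [hAB.sup_eq_top]; trivial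
  obtain ⟨a, ha, b, hb, rfl⟩ := Submodule.mem_sup.1 hv
  rw [Module.End.mul_apply, Module.End.mul_apply, map_add, map_add, map_add, map_add, h3 b hb, h4 a ha,
    h4 _ (hA a ha)]

theorem card_cent_le [Finite X] [Finite K] [Finite V] {τ : X →* (V →ₗ[K] V)} (hτ : Function.Injective τ) {x : X}
    {A : Submodule K V} {k : ℕ}
    (h : GoodPow (τ x) A k) {m : ℕ} (h1 : 1 ≤ m) (h2 : m < k) :
    Nat.card (Subgroup.centralizer ({x ^ m} : Set X)) ≤
      Nat.card K ^ (finrank K A ^ 2) * Nat.card (Subgroup.centralizer ({x} : Set X)) := by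
  classical
  have hpres : ∀ g : Subgroup.centralizer ({x ^ m} : Set X), ∀ a ∈ A, τ g a ∈ A := by
    intro g
    obtain ⟨B, hAB, hA, hB, hm⟩ := h
    have hc : Commute (τ g) (τ x ^ m) := by
      rw [← map_pow]
      exact Commute.map (Subgroup.mem_centralizer_singleton_iff.1 g.2) τ
    exact (hm m h1 h2 _ hc).1
  let φ : Subgroup.centralizer ({x ^ m} : Set X) → (A →ₗ[K] A) := fun g => (τ g).restrict (hpres g)
  have hφ : ∀ g g', φ g = φ g' → (g : X)⁻¹ * g' ∈ Subgroup.centralizer ({x} : Set X) := by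
    intro g g' he
    refine cent_aux hτ h h1 h2 (Subgroup.mem_centralizer_singleton_iff.1 g.2)
      (Subgroup.mem_centralizer_singleton_iff.1 g'.2) fun a ha => ?_
    have := congrArg (fun f : A →ₗ[K] A => ((f ⟨a, ha⟩ : A) : V)) he
    exact this
  -- choose a preimage
  let r : (A →ₗ[K] A) → Subgroup.centralizer ({x ^ m} : Set X) := Function.invFun φ
  have hr : ∀ g, φ (r (φ g)) = φ g := fun g => Function.invFun_eq ⟨g, rfl⟩
  let ψ : Subgroup.centralizer ({x ^ m} : Set X) → (A →ₗ[K] A) × Subgroup.centralizer ({x} : Set X) :=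
    fun g => (φ g, ⟨(r (φ g) : X)⁻¹ * g, hφ _ _ (hr g)⟩)
  have hψ : Function.Injective ψ := by
    intro g g' he
    have e1 : φ g = φ g' := congrArg Prod.fst he
    have e2 : (r (φ g) : X)⁻¹ * g = (r (φ g') : X)⁻¹ * g' := 
      Subtype.ext_iff.1 (congrArg Prod.snd he)
    rw [e1] at e2
    exact Subtype.ext (mul_left_cancel e2)
  have : Finite (A →ₗ[K] A) := Module.finite_of_finite K
  have hcard := Nat.card_le_card_of_injective ψ hψ
  rw [Nat.card_prod] at hcard
  have hE : Nat.card (A →ₗ[K] A) = Nat.card K ^ (finrank K A ^ 2) := by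
    rw [Module.natCard_eq_pow_finrank (K := K) (V := A →ₗ[K] A), Module.finrank_linearMap, pow_two]
  rwa [hE] at hcard

end lin

/-! ### general facts -/

section gen

variable {X T : Type} [Group X] [Group T]

/-- the order of a group and of an image -/
theorem card_eq [Finite X] (π : X →* T) (hπ : Function.Surjective π) :
    Nat.card X = Nat.card π.ker * Nat.card T := by
  rw [← Subgroup.card_mul_index π.ker, Subgroup.index_ker, MonoidHom.range_eq_top.2 hπ, Subgroup.card_top]

theorem card_class_le [Finite X] [Finite T] (π : X →* T) (hπ : Function.Surjective π) (z : X) :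
    Nat.card {x : X // IsConj x z} ≤ Nat.card π.ker * Nat.card {y : T // IsConj y (π z)} := by
  rw [← Nat.card_prod]
  let s : T → X := Function.surjInv hπ
  have hs : ∀ t, π (s t) = t := Function.surjInv_eq hπ
  refine Nat.card_le_card_of_injective
    (fun x : {x : X // IsConj x z} => ((⟨(x : X) * (s (π x))⁻¹, by
        rw [MonoidHom.mem_ker, map_mul, map_inv, hs, mul_inv_cancel]⟩ : π.ker),
      (⟨π x, π.map_isConj x.2⟩ : {y : T // IsConj y (π z)}))) ?_
  intro x x' he
  have e1 : π x = π x' := Subtype.ext_iff.1 (congrArg Prod.snd he)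
  have e2 : (x : X) * (s (π x))⁻¹ = (x' : X) * (s (π x'))⁻¹ := Subtype.ext_iff.1 (congrArg Prod.fst he)
  rw [e1] at e2
  exact Subtype.ext (mul_right_cancel e2)

theorem card_cent_mul [Finite X] (z : X) :
    Nat.card (Subgroup.centralizer ({z} : Set X)) * Nat.card {x : X // IsConj x z} = Nat.card X := by
  classical
  have := Fintype.ofFinite X
  rw [← Cfsg.Agent.S0145.card_centralizer_mul_card_class z, Nat.card_eq_fintype_card (α := {x : X // IsConj x z}),
    Fintype.card_subtype]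

theorem card_cent_map_le [Finite X] [Finite T] (π : X →* T) (hπ : Function.Surjective π) (z : X) :
    Nat.card (Subgroup.centralizer ({π z} : Set T)) ≤ Nat.card (Subgroup.centralizer ({z} : Set X)) := by
  have h1 := card_cent_mul z
  have h2 := card_cent_mul (π z)
  have h3 := card_class_le π hπ z
  have h4 := card_eq π hπ
  have : Nonempty {y : T // IsConj y (π z)} := ⟨⟨π z, IsConj.refl _⟩⟩
  have h5 : 0 < Nat.card {y : T // IsConj y (π z)} := Nat.card_pos
  have h6 : 0 < Nat.card π.ker := Nat.card_pos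
  refine Nat.le_of_mul_le_mul_right ?_ (Nat.mul_pos h6 h5)
  calc Nat.card (Subgroup.centralizer ({π z} : Set T)) * (Nat.card π.ker * Nat.card {y : T // IsConj y (π z)})
      = Nat.card π.ker * (Nat.card (Subgroup.centralizer ({π z} : Set T)) * Nat.card {y : T // IsConj y (π z)}) := by
        ring
    _ = Nat.card X := by rw [h2, h4]
    _ = Nat.card (Subgroup.centralizer ({z} : Set X)) * Nat.card {x : X // IsConj x z} := h1.symm
    _ ≤ _ := Nat.mul_le_mul_left _ h3

/-- `|χ(g)|² ≤ |C(g)|` -/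
theorem normSq_le_card [Finite T] {χ : T → ℂ} (hχ : IsIrrCharacter T χ) (g : T) :
    ‖χ g‖ ^ 2 ≤ Nat.card (Subgroup.centralizer ({g} : Set T)) := by
  classical
  have := Cfsg.Agent.Characters.Core.finite_irr (G := T)
  have := Fintype.ofFinite (IrrCharacter T)
  have := Fintype.ofFinite T
  have h := Cfsg.Agent.S0145.sum_irr_mul_conj g g
  rw [if_pos (IsConj.refl g)] at h
  have h1 : (((∑ χ : IrrCharacter T, Complex.normSq ((χ : T → ℂ) g) : ℝ)) : ℂ)
      = (Nat.card (Subgroup.centralizer ({g} : Set T)) : ℂ) := by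
    rw [← h, Complex.ofReal_sum]
    exact Finset.sum_congr rfl fun χ _ => by rw [Complex.mul_conj]
  have h2 : (∑ χ : IrrCharacter T, Complex.normSq ((χ : T → ℂ) g)) =
      (Nat.card (Subgroup.centralizer ({g} : Set T)) : ℝ) := by exact_mod_cast h1
  rw [← h2, ← Complex.normSq_eq_norm_sq]
  exact Finset.single_le_sum (f := fun χ : IrrCharacter T => Complex.normSq ((χ : T → ℂ) g))
    (fun χ _ => Complex.normSq_nonneg _) (Finset.mem_univ (⟨χ, hχ⟩ : IrrCharacter T))

/-- few elements have a large centraliser -/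
theorem card_large_cent [Finite X] {w : ℝ} (hw : 0 < w) :
    (Nat.card {x : X // w * Nat.card (ConjClasses X) < Nat.card (Subgroup.centralizer ({x} : Set X))} : ℝ) ≤
      Nat.card X / w := by
  classical
  have := Fintype.ofFinite X
  have hk : (0 : ℝ) < Nat.card (ConjClasses X) := by
    have : Nonempty (ConjClasses X) := ⟨ConjClasses.mk 1⟩
    exact_mod_cast Nat.card_pos
  have h1 : (∑ x : X, (Nat.card (Subgroup.centralizer ({x} : Set X)) : ℝ)) = Nat.card (ConjClasses X) * Nat.card X := by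
    rw [← Nat.cast_mul, ← card_comm_eq_card_conjClasses_mul_card, ← Nat.cast_sum]
    congr 1
    have e : {p : X × X // Commute p.1 p.2} ≃ Σ x : X, Subgroup.centralizer ({x} : Set X) :=
      { toFun := fun p => ⟨p.1.2, ⟨p.1.1, Subgroup.mem_centralizer_singleton_iff.2 p.2⟩⟩
        invFun := fun p => ⟨(p.2, p.1), Subgroup.mem_centralizer_singleton_iff.1 p.2.2⟩
        left_inv := fun p => rfl
        right_inv := fun p => rfl }
    rw [Nat.card_congr e, Nat.card_sigma]
  rw [le_div_iff₀ hw]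
  have h2 : (Nat.card {x : X // w * Nat.card (ConjClasses X) < Nat.card (Subgroup.centralizer ({x} : Set X))} : ℝ) *
      (w * Nat.card (ConjClasses X)) ≤ ∑ x : X, (Nat.card (Subgroup.centralizer ({x} : Set X)) : ℝ) := by
    rw [Nat.card_eq_fintype_card, Fintype.card_subtype, ← nsmul_eq_mul, ← Finset.sum_const]
    refine (Finset.sum_le_sum fun x hx => ?_).trans (Finset.sum_le_sum_of_subset_of_nonneg (Finset.filter_subset _ _)
      fun x _ _ => Nat.cast_nonneg _)
    exact ((Finset.mem_filter.1 hx).2).le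
  rw [h1, ← mul_assoc, mul_comm (Nat.card (ConjClasses X) : ℝ)] at h2
  exact le_of_mul_le_mul_right h2 hk

end gen

section lin

variable {K V : Type} [Field K] [AddCommGroup V] [Module K V] {X : Type} [Group X]

theorem badN_le' [Finite X] [Finite K] [Finite V] {T : Type} [Group T] [Finite T] (π : X →* T)
    (hπ : Function.Surjective π)
    {τ : X →* (V →ₗ[K] V)} (hτ : Function.Injective τ) {d ρ w : ℝ} {s0 k : ℕ} (hw : 0 < w) (hd : 0 ≤ d)
    (hdeg : ∀ χ : T → ℂ, IsIrrCharacter T χ → (∃ g, χ g ≠ 1) → d ≤ (χ 1).re) (hρ : 0 ≤ ρ)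
    (hnum : (Nat.card K : ℝ) ^ (s0 ^ 2) * (w * Nat.card (ConjClasses X)) ≤ (ρ * d) ^ 2) :
    (badN T k ρ : ℝ) * Nat.card X ≤
      (Nat.card {x : X // ¬ ∃ A : Submodule K V, finrank K A ≤ s0 ∧ GoodPow (τ x) A (k + 1)} + Nat.card X / w) *
        Nat.card T := by
  classical
  have := Fintype.ofFinite X
  -- the lift of the bad set
  have hbad : ∀ x : X, (∃ m : ℕ, 1 ≤ m ∧ (m : ℝ) ≤ k ∧ ¬ Rat ρ (π x ^ m)) →
      (¬ ∃ A : Submodule K V, finrank K A ≤ s0 ∧ GoodPow (τ x) A (k + 1)) ∨
        w * Nat.card (ConjClasses X) < Nat.card (Subgroup.centralizer ({x} : Set X)) := by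
    rintro x ⟨m, h1, hmk, hbad⟩
    by_contra hcon
    push Not at hcon
    obtain ⟨⟨A, hA, hgood⟩, hc⟩ := hcon
    apply hbad
    intro χ hχ hne
    have hmk' : m < k + 1 := by
      have : m ≤ k := by exact_mod_cast hmk
      omega
    have e1 : ((Nat.card (Subgroup.centralizer ({x ^ m} : Set X)) : ℕ) : ℝ) ≤
        ((Nat.card K : ℝ) ^ (finrank K A ^ 2)) * Nat.card (Subgroup.centralizer ({x} : Set X)) := by
      exact_mod_cast card_cent_le hτ hgood h1 hmk'
    have hK : (1 : ℝ) ≤ Nat.card K := by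
      exact_mod_cast Nat.card_pos
    have e2 : ((Nat.card K : ℝ) ^ (finrank K A ^ 2)) ≤ (Nat.card K : ℝ) ^ (s0 ^ 2) :=
      pow_le_pow_right₀ hK (Nat.pow_le_pow_left hA 2)
    have e3 : ‖χ (π x ^ m)‖ ^ 2 ≤ (ρ * d) ^ 2 := by
      calc ‖χ (π x ^ m)‖ ^ 2 ≤ Nat.card (Subgroup.centralizer ({π x ^ m} : Set T)) := normSq_le_card hχ _
        _ ≤ Nat.card (Subgroup.centralizer ({x ^ m} : Set X)) := by
            rw [← map_pow]
            exact_mod_cast card_cent_map_le π hπ (x ^ m)
        _ ≤ _ := e1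
        _ ≤ (Nat.card K : ℝ) ^ (s0 ^ 2) * (w * Nat.card (ConjClasses X)) := by
            gcongr
        _ ≤ _ := hnum
    have e4 : ‖χ (π x ^ m)‖ ≤ ρ * d := by
      have h0 : 0 ≤ ρ * d := mul_nonneg hρ hd
      exact le_of_sq_le_sq e3 h0
    exact e4.trans (mul_le_mul_of_nonneg_left (hdeg χ hχ hne) hρ)
  have hN : Nat.card {x : X // ∃ m : ℕ, 1 ≤ m ∧ (m : ℝ) ≤ k ∧ ¬ Rat ρ (π x ^ m)} ≤
      Nat.card {x : X // ¬ ∃ A : Submodule K V, finrank K A ≤ s0 ∧ GoodPow (τ x) A (k + 1)} +
      Nat.card {x : X // w * Nat.card (ConjClasses X) < Nat.card (Subgroup.centralizer ({x} : Set X))} := by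
    rw [Nat.card_eq_fintype_card, Nat.card_eq_fintype_card, Nat.card_eq_fintype_card, Fintype.card_subtype,
      Fintype.card_subtype, Fintype.card_subtype]
    refine (Finset.card_le_card (t := _ ∪ _) ?_).trans (Finset.card_union_le _ _)
    intro x hx
    rw [Finset.mem_union, Finset.mem_filter, Finset.mem_filter]
    rcases hbad x (Finset.mem_filter.1 hx).2 with h | h
    · exact Or.inl ⟨Finset.mem_univ _, h⟩
    · exact Or.inr ⟨Finset.mem_univ _, h⟩
  have hlift : badN T k ρ * Nat.card π.ker ≤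
      Nat.card {x : X // ∃ m : ℕ, 1 ≤ m ∧ (m : ℝ) ≤ k ∧ ¬ Rat ρ (π x ^ m)} := by
    unfold badN
    rw [← Nat.card_prod]
    let s : T → X := Function.surjInv hπ
    have hs : ∀ t, π (s t) = t := Function.surjInv_eq hπ
    have hπ' : ∀ (t : T) (n : π.ker), π (s t * n) = t := by
      intro t n
      rw [map_mul, hs, MonoidHom.mem_ker.1 n.2, mul_one]
    refine Nat.card_le_card_of_injective (fun p => ⟨s p.1 * p.2, by
      obtain ⟨m, h1, h2, h3⟩ := p.1.2
      exact ⟨m, h1, h2, by rw [hπ']; exact h3⟩⟩) ?_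
    intro p p' he
    have e0 : s p.1 * p.2 = s p'.1 * p'.2 := Subtype.ext_iff.1 he
    have e1 : (p.1 : T) = p'.1 := by rw [← hπ' p.1 p.2, e0, hπ']
    rw [e1] at e0
    exact Prod.ext (Subtype.ext e1) (Subtype.ext (mul_left_cancel e0))
  have hL := card_large_cent (X := X) hw
  have hX := card_eq π hπ
  have h1 : (badN T k ρ : ℝ) * Nat.card π.ker ≤
      Nat.card {x : X // ¬ ∃ A : Submodule K V, finrank K A ≤ s0 ∧ GoodPow (τ x) A (k + 1)} + Nat.card X / w := by
    have h2 : (badN T k ρ : ℝ) * Nat.card π.ker ≤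
        (Nat.card {x : X // ∃ m : ℕ, 1 ≤ m ∧ (m : ℝ) ≤ k ∧ ¬ Rat ρ (π x ^ m)} : ℝ) := by exact_mod_cast hlift
    have h3 : (Nat.card {x : X // ∃ m : ℕ, 1 ≤ m ∧ (m : ℝ) ≤ k ∧ ¬ Rat ρ (π x ^ m)} : ℝ) ≤
        Nat.card {x : X // ¬ ∃ A : Submodule K V, finrank K A ≤ s0 ∧ GoodPow (τ x) A (k + 1)} +
        Nat.card {x : X // w * Nat.card (ConjClasses X) < Nat.card (Subgroup.centralizer ({x} : Set X))} := by
      exact_mod_cast hN
    linarith
  calc (badN T k ρ : ℝ) * Nat.card X = (badN T k ρ : ℝ) * Nat.card π.ker * Nat.card T := by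
        rw [hX]; push_cast; ring
    _ ≤ _ := mul_le_mul_of_nonneg_right h1 (Nat.cast_nonneg _)

/-- the general assembly (the kernel of `π` need not be central) -/
theorem badN_le [Finite X] [Finite K] [Finite V] {T : Type} [Group T] [Finite T] (π : X →* T)
    (hπ : Function.Surjective π) (_hker : π.ker ≤ Subgroup.center X)
    {τ : X →* (V →ₗ[K] V)} (hτ : Function.Injective τ) {d ρ w : ℝ} {s0 k : ℕ} (hw : 0 < w) (hd : 0 ≤ d)
    (hdeg : ∀ χ : T → ℂ, IsIrrCharacter T χ → (∃ g, χ g ≠ 1) → d ≤ (χ 1).re) (hρ : 0 ≤ ρ)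
    (hnum : (Nat.card K : ℝ) ^ (s0 ^ 2) * (w * Nat.card (ConjClasses X)) ≤ (ρ * d) ^ 2) :
    (badN T k ρ : ℝ) * Nat.card X ≤
      (Nat.card {x : X // ¬ ∃ A : Submodule K V, finrank K A ≤ s0 ∧ GoodPow (τ x) A (k + 1)} + Nat.card X / w) *
        Nat.card T :=
  badN_le' π hπ hτ hw hd hdeg hρ hnum

end lin

end Cfsg.Agent.H342.Rg
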